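import Mathlib
import Cfsg.Agent.BG.T1_5
import Cfsg.Agent.Comp2.Ssft2

/-!
# Cores of centralizers under a coprime operator group
-/

set_option autoImplicit false

namespace Cfsg.Agent.Fix

open Cfsg Cfsg.Agent.BG Cfsg.Agent.BG.Amb Cfsg.Agent.BG.QuoApi Subgroup

variable {G : Type*} [Group G] [Finite G]

theorem coprime_quo_cent' {A H N : Subgroup G} (hAH : A ≤ 𝐍(H)) (hAN : A ≤ 𝐍(N))
    (hcop : (Nat.card N).Coprime (Nat.card A)) (hA : Group.IsSolvable A) :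
    quo N (H ⊓ 𝐂(A)) = quo N H ⊓ 𝐂(quo N A) := by
  apply le_antisymm
  · exact (quo_inf_le N _ _).trans (inf_le_inf_left _ (quo_centralizer_le N A))
  · rintro y ⟨hy, hyc⟩
    obtain ⟨x, hxH, rfl⟩ := mem_quo.mp hy
    have key : ∀ a ∈ A, (x : G)⁻¹ * (a * x * a⁻¹) ∈ N ⊓ H := by
      intro a ha
      refine ⟨?_, H.mul_mem (H.inv_mem hxH) (Core.conj_mem_of_le_normalizer hAH ha hxH)⟩
      have h1 := mem_centralizer_iff.mp hyc (quoMk N ⟨a, hAN ha⟩)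
        (mk_mem_quo (x := ⟨a, hAN ha⟩) ha)
      have h2 : quoMk N x = quoMk N (⟨a, hAN ha⟩ * x * ⟨a, hAN ha⟩⁻¹) := by
        rw [map_mul, map_mul, h1, map_inv]; group
      exact quoMk_eq_iff.mp h2
    obtain ⟨n, hn, hc⟩ := Core.exists_mul_mem_centralizer A (N ⊓ H) (Core.le_normalizer_inf hAN hAH)
      (Core.coprime_of_le_right hcop.symm inf_le_left) (Or.inl hA) x key
    refine mem_quo.mpr ⟨x * ⟨n, le_normalizer hn.1⟩, ⟨H.mul_mem hxH hn.2, hc⟩, ?_⟩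
    rw [map_mul, (quoMk_eq_one_iff (x := ⟨n, le_normalizer hn.1⟩)).mpr hn.1, mul_one]

theorem core_reduced {q : ℕ} [hq : Fact q.Prime] {H P Z X W : Subgroup G} (hPH : P ≤ 𝐍(H))
    (hcop : (Nat.card H).Coprime (Nat.card P)) (hP : Group.IsSolvable P)
    (hK : Group.IsSolvable (⁅H, P⁆ : Subgroup G)) (hO : piCoreOf {q}ᶜ H = ⊥)
    (hZ : IsPGroup q Z) (hZH : Z ≤ H) (hX : IsPiSubgroup {q}ᶜ X) (hXH : X ≤ H ⊓ 𝐂(Z))
    (hXn : H ⊓ 𝐂(Z) ≤ 𝐍(X)) (hPX : P ≤ 𝐍(X)) (hW : IsPiSubgroup {q}ᶜ W) (hWH : W ≤ H)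
    (hWn : H ⊓ 𝐂(P) ≤ 𝐍(W)) : X ⊓ W = ⊥ ∧ ⁅X, P⁆ = ⊥ := by
  set K : Subgroup G := ⁅H, P⁆ with hKdef
  have hKH : K ≤ H := comm_le_left hPH
  have hHK : H ≤ 𝐍(K) := normalizer_commutator_ge_left H P
  have hOK : piCoreOf {q}ᶜ K = ⊥ := eq_bot_iff.2 (hO ▸ piCoreOf_normal_le hKH hHK)
  set Q := piCoreOf {q} K with hQdef
  have hQ : IsPGroup q Q := piCoreOf_isPGroup K
  have hQK : Q ≤ K := piCoreOf_le _ _
  have hHQ : H ≤ 𝐍(Q) := le_norm_piCoreOf_of _ hHK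
  have hCQ : K ⊓ 𝐂(Q) ≤ Q := by
    have := cent_fittingOf_le hK
    rwa [fittingOf_eq_piCoreOf hOK] at this
  have hXH' : X ≤ H := hXH.trans inf_le_left
  have hXQ0 : Q ⊓ X = ⊥ := pi_inf_eq_bot (isPGroup_iff_pi.1 hQ) hX
  have hXQ : X ≤ 𝐂(Q) := by
    refine Core.p_times_q hZ ?_ hQ (le_cent_symm (hXH.trans inf_le_right)) (hZH.trans hHQ)
      (hXH'.trans hHQ) ?_
    · exact ((Nat.Prime.coprime_iff_not_dvd hq.out).2 ((pi_compl_singleton hq.out).1 hX)).symm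
    · exact le_cent_of_comm_le (comm_le_of_left_le inf_le_left (hXH'.trans hHQ))
        (comm_le_right ((inf_le_inf_right _ (hQK.trans hKH)).trans hXn)) hXQ0
  have hXK : X ≤ 𝐂(K) := by
    have h1 : ⁅K, X⁆ ≤ Q := (le_inf (comm_le_left (hXH'.trans hHK))
      (comm_le_cent_of_norm (hKH.trans hHQ) hXQ)).trans hCQ
    have h2 := coprime_sup_cent_of_comm_le hQK (hXH'.trans hHQ)
      (pi_coprime (isPGroup_iff_pi.1 hQ) hX) (.inr (solvable_of_isPGroup hQ)) h1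
    exact le_cent_symm (h2 ▸ sup_le (le_cent_symm hXQ) inf_le_right)
  constructor
  · have hV : W ⊓ 𝐂(K) ≤ piCoreOf {q}ᶜ H := by
      refine le_piCoreOf (inf_le_left.trans hWH) ?_ (pi_mono hW inf_le_left)
      rw [← coprime_comm_sup_cent hPH hcop (.inl hP)]
      exact sup_le (le_norm_of_le_cent (le_cent_symm inf_le_right))
        (le_norm_inf_cent hWn (inf_le_left.trans hHK))
    exact eq_bot_iff.2 (hO ▸ (le_inf inf_le_right (inf_le_left.trans hXK)).trans hV)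
  · have h1 : ⁅X, P⁆ ≤ X := comm_le_left hPX
    have h2 : ⁅X, P⁆ ≤ Q :=
      (le_inf (commutator_mono hXH' le_rfl) (h1.trans hXQ)).trans hCQ
    exact eq_bot_iff.2 (hXQ0 ▸ le_inf h2 h1)

theorem core_control {q : ℕ} [hq : Fact q.Prime] {H P Z : Subgroup G} (hPH : P ≤ 𝐍(H))
    (hcop : (Nat.card H).Coprime (Nat.card P)) (hP : Group.IsSolvable P)
    (hK : Group.IsSolvable (⁅H, P⁆ : Subgroup G)) (hZ : IsPGroup q Z) (hZH : Z ≤ H)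
    (hZP : Z ≤ 𝐂(P)) :
    (piCoreOf {q}ᶜ (H ⊓ 𝐂(Z)) ⊓ piCoreOf {q}ᶜ (H ⊓ 𝐂(P))) ⊔ ⁅piCoreOf {q}ᶜ (H ⊓ 𝐂(Z)), P⁆ ≤
      piCoreOf {q}ᶜ H := by
  set N := piCoreOf {q}ᶜ H
  have hHN : H ≤ 𝐍(N) := le_norm_piCoreOf _ _
  have hPN : P ≤ 𝐍(N) := le_norm_piCoreOf_of _ hPH
  have hNH : N ≤ H := piCoreOf_le _ _
  have e1 := coprime_quo_cent' (le_norm_of_le hZH) (hZH.trans hHN)
    (pi_coprime (isPGroup_iff_pi.1 hZ) (piCoreOf_pi _ H)).symm (solvable_of_isPGroup hZ)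
  have e2 := coprime_quo_cent' hPH hPN (Core.coprime_of_le_right hcop.symm hNH).symm hP
  have hX : piCoreOf {q}ᶜ (H ⊓ 𝐂(Z)) ≤ 𝐍(N) := ((piCoreOf_le _ _).trans inf_le_left).trans hHN
  have hPX : P ≤ 𝐍(piCoreOf {q}ᶜ (H ⊓ 𝐂(Z))) := le_norm_piCoreOf_of _
    (le_norm_inf_cent hPH (le_norm_of_le_cent (le_cent_symm hZP)))
  obtain ⟨h1, h2⟩ := core_reduced (q := q) (H := quo N H) (P := quo N P) (Z := quo N Z)
    (X := quo N (piCoreOf {q}ᶜ (H ⊓ 𝐂(Z)))) (W := quo N (piCoreOf {q}ᶜ (H ⊓ 𝐂(P))))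
    (quo_le_normalizer hPH) (coprime_quo hcop N) (isSolvable_quo N)
    (quo_commutator hHN hPN ▸ isSolvable_quo N) (Comp2.piCoreOf_quo_piCoreOf _ _)
    (isPGroup_quo hZ N) (quo_mono hZH) (isPiSubgroup_quo (piCoreOf_pi _ _) N)
    (e1 ▸ quo_mono (piCoreOf_le _ _)) (e1 ▸ quo_le_normalizer (le_norm_piCoreOf _ _))
    (quo_le_normalizer hPX) (isPiSubgroup_quo (piCoreOf_pi _ _) N)
    (quo_mono ((piCoreOf_le _ _).trans inf_le_left))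
    (e2 ▸ quo_le_normalizer (le_norm_piCoreOf _ _))
  refine sup_le ?_ ?_
  · rw [← quo_eq_bot_iff (inf_le_left.trans hX)]
    exact eq_bot_iff.2 (h1 ▸ quo_inf_le _ _ _)
  · rw [← quo_eq_bot_iff ((comm_le_left hPX).trans hX), quo_commutator hX hPN, h2]

end Cfsg.Agent.Fix
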